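import Mathlib

/-!
# Isomorphisms out of a simple group by counting (helper93)
-/

set_option autoImplicit false

namespace Cfsg.Agent.Lib.Helper93.SimpleIso

/-- a homomorphism out of a simple group which is not trivial is injective -/
theorem injective_of_simple {P Γ : Type*} [Group P] [Group Γ] (hs : IsSimpleGroup P) (ψ : P →* Γ)
    (x : P) (hx : ψ x ≠ 1) : Function.Injective ψ := by
  rw [← MonoidHom.ker_eq_bot_iff]
  rcases hs.eq_bot_or_eq_top_of_normal ψ.ker inferInstance with h | h
  · exact h
  · exact absurd (MonoidHom.mem_ker.mp (h ▸ Subgroup.mem_top x)) hx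

/-- a nontrivial homomorphism from a simple group to a finite group of the same order is an isomorphism -/
theorem equiv_of_simple {P Γ : Type*} [Group P] [Group Γ] [Finite Γ] (hs : IsSimpleGroup P) (ψ : P →* Γ)
    (x : P) (hx : ψ x ≠ 1) (hc : Nat.card P = Nat.card Γ) : Nonempty (P ≃* Γ) := by
  have hi := injective_of_simple hs ψ x hx
  exact ⟨MulEquiv.ofBijective ψ ((Nat.bijective_iff_injective_and_card ψ).mpr ⟨hi, hc⟩)⟩

end Cfsg.Agent.Lib.Helper93.SimpleIso
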