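import Cfsg.Agent.Lib.Helper61.PrimeGraphExt

/-!
# Prime graphs of split extensions, second version (helper93)

Variant of helper61's `exists_large_samePG`: elements of prime order `s ≠ p` are allowed to fix
nonzero vectors as long as the group already has an element of order `p * s`.
-/

set_option autoImplicit false

namespace Cfsg.Agent.Lib.Helper93.PGExt

open Cfsg.Agent.Lib.Helper61

universe u v

section semidirect

variable {N : Type u} {L : Type v} [CommGroup N] [Group L] (φ : L →* MulAut N)

open SemidirectProduct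

theorem exists_orderOf_of_semidirect' (p : ℕ) (hp : p.Prime) (hN : IsPGroup p N)
    (s : ℕ) (hs : s.Prime) (hsp : s ≠ p)
    (hfix : ∀ (g : L) (n : N), orderOf g = s → n ≠ 1 → φ g n = n → ∃ x : L, orderOf x = p * s)
    (y : N ⋊[φ] L) (hy : orderOf y = p * s) :
    ∃ x : L, orderOf x = p * s := by
  have hcop : Nat.Coprime s p := (Nat.coprime_primes hs hp).mpr hsp
  have hker := isPGroup_ker_rightHom φ p hN
  have hw : orderOf (y ^ p) = s := by
    rw [orderOf_pow_of_dvd hp.ne_zero (by rw [hy]; exact dvd_mul_right _ _), hy,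
      Nat.mul_div_cancel_left _ hp.pos]
  have hu : orderOf (y ^ s) = p := by
    rw [orderOf_pow_of_dvd hs.ne_zero (by rw [hy]; exact dvd_mul_left _ _), hy,
      Nat.mul_div_cancel _ hs.pos]
  have hπw : orderOf (rightHom (y ^ p)) = s := by
    rw [orderOf_map_of_coprime rightHom p hker (y ^ p) (by rw [hw]; exact hcop), hw]
  by_cases hπu : rightHom (y ^ s) = 1
  · have hmem : y ^ s ∈ (inl : N →* N ⋊[φ] L).range := by
      rw [range_inl_eq_ker_rightHom]; exact hπu
    obtain ⟨n, hn⟩ := hmem
    have hn1 : n ≠ 1 := by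
      rintro rfl
      rw [map_one] at hn
      rw [← hn, orderOf_one] at hu
      exact hp.one_lt.ne hu
    have hcomm : y ^ p * y ^ s = y ^ s * y ^ p := by rw [← pow_add, ← pow_add, add_comm]
    have hfixed : φ (rightHom (y ^ p)) n = n := by
      have h1 := congrArg SemidirectProduct.left hcomm
      rw [← hn, mul_left, mul_left, left_inl, right_inl, map_one, MulAut.one_apply,
        mul_comm n] at h1
      exact mul_left_cancel h1
    exact hfix _ n hπw hn1 hfixed
  · refine ⟨rightHom y, ?_⟩
    have hd : orderOf (rightHom y) ∣ p * s := by rw [← hy]; exact orderOf_map_dvd _ _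
    have hs' : s ∣ orderOf (rightHom y) := by
      rw [← hπw, map_pow]; exact orderOf_pow_dvd _
    have hp' : p ∣ orderOf (rightHom y) := by
      have h3 : orderOf (rightHom (y ^ s)) ∣ p := by rw [← hu]; exact orderOf_map_dvd _ _
      have h4 : orderOf (rightHom (y ^ s)) = p := by
        rcases (Nat.dvd_prime hp).mp h3 with h | h
        · exact absurd (orderOf_eq_one_iff.mp h) hπu
        · exact h
      rw [← h4, map_pow]; exact orderOf_pow_dvd _
    exact Nat.dvd_antisymm hd (Nat.Coprime.mul_dvd_of_dvd_of_dvd hcop.symm hp' hs')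

theorem samePG_semidirect' [Finite N] [Finite L] (p : ℕ) (hp : p.Prime) (hN : IsPGroup p N)
    (hpL : p ∣ Nat.card L)
    (hfix : ∀ s : ℕ, s.Prime → s ≠ p → ∀ (g : L) (n : N), orderOf g = s → n ≠ 1 → φ g n = n →
      ∃ x : L, orderOf x = p * s) :
    SamePG L (N ⋊[φ] L) := by
  constructor
  · intro r hr
    rw [SemidirectProduct.card]
    refine ⟨fun h => h.mul_left _, fun h => ?_⟩
    rcases (Nat.Prime.dvd_mul hr).mp h with h | h
    · have : Fact p.Prime := ⟨hp⟩
      obtain ⟨k, hk⟩ := IsPGroup.iff_card.mp hN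
      rw [hk] at h
      have := (Nat.prime_dvd_prime_iff_eq hr hp).mp (hr.dvd_of_dvd_pow h)
      rw [this]; exact hpL
    · exact h
  · intro r s hr hs hrs
    constructor
    · rintro ⟨g, hg⟩
      exact ⟨inr g, by rw [orderOf_injective _ inr_injective, hg]⟩
    · rintro ⟨y, hy⟩
      by_cases hrp : r = p
      · subst hrp
        exact exists_orderOf_of_semidirect' φ r hp hN s hs (Ne.symm hrs)
          (hfix s hs (Ne.symm hrs)) y hy
      · by_cases hsp : s = p
        · subst hsp
          rw [mul_comm] at hy ⊢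
          exact exists_orderOf_of_semidirect' φ s hp hN r hr hrs (hfix r hr hrs) y hy
        · refine ⟨rightHom y, ?_⟩
          rw [orderOf_map_of_coprime rightHom p (isPGroup_ker_rightHom φ p hN) y, hy]
          rw [hy]
          exact Nat.Coprime.mul_left ((Nat.coprime_primes hr hp).mpr hrp)
            ((Nat.coprime_primes hs hp).mpr hsp)

end semidirect

section matrix

variable {F : Type u} [Field F] {n : ℕ}

/-- **Main construction**, second version. -/
theorem exists_large_samePG' [Fintype F] {L : Type v} [Group L] [Finite L] (p : ℕ) (hp : p.Prime)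
    [CharP F p] (hn : 0 < n) (ρ : L →* GL (Fin n) F) (hpL : p ∣ Nat.card L)
    (hfix : ∀ s : ℕ, s.Prime → s ≠ p → ∀ (g : L) (v : Fin n → F), orderOf g = s → v ≠ 0 →
      (ρ g : Matrix (Fin n) (Fin n) F).mulVec v = v → ∃ x : L, orderOf x = p * s) (B : ℕ) :
    ∃ (H : Type) (_ : Group H) (_ : Fintype H), B < Fintype.card H ∧ SamePG L H := by
  classical
  let φ : L →* MulAut (Multiplicative (Matrix (Fin n) (Fin B) F)) := glAut.comp ρ
  have hsame : SamePG L (Multiplicative (Matrix (Fin n) (Fin B) F) ⋊[φ] L) := by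
    apply samePG_semidirect' φ p hp (isPGroup_matrix p) hpL
    intro s hs hsp g M hg hM hgM
    have hM' : Multiplicative.toAdd M ≠ 0 := fun h => hM (Multiplicative.toAdd.injective h)
    obtain ⟨i, j, hij⟩ : ∃ i j, Multiplicative.toAdd M i j ≠ 0 := by
      by_contra hcon
      push Not at hcon
      exact hM' (by ext i j; exact hcon i j)
    apply hfix s hs hsp g (fun i => Multiplicative.toAdd M i j) hg
    · intro h0
      exact hij (congrFun h0 i)
    · have h1 : (ρ g : Matrix (Fin n) (Fin n) F) * Multiplicative.toAdd M = Multiplicative.toAdd M :=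
        congrArg Multiplicative.toAdd hgM
      ext i'
      have h2 := congrFun (congrFun h1 i') j
      rw [Matrix.mul_apply] at h2
      exact h2
  have : Finite (Multiplicative (Matrix (Fin n) (Fin B) F) ⋊[φ] L) :=
    Finite.of_equiv _ SemidirectProduct.equivProd.symm
  obtain ⟨H', iG, iF, ⟨e⟩⟩ := exists_type0_copy (Multiplicative (Matrix (Fin n) (Fin B) F) ⋊[φ] L)
  refine ⟨H', iG, iF, ?_, hsame.trans (SamePG.of_mulEquiv e)⟩
  rw [← Nat.card_eq_fintype_card, ← Nat.card_congr e.toEquiv, SemidirectProduct.card]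
  have hL : 0 < Nat.card L := Nat.card_pos
  have hcard : Nat.card (Multiplicative (Matrix (Fin n) (Fin B) F)) = Fintype.card F ^ (n * B) := by
    rw [Nat.card_congr Multiplicative.toAdd, Nat.card_eq_fintype_card]
    show Fintype.card (Fin n → Fin B → F) = _
    rw [Fintype.card_fun, Fintype.card_fun, Fintype.card_fin, Fintype.card_fin, ← pow_mul,
      mul_comm]
  have hF : 2 ≤ Fintype.card F := Fintype.one_lt_card
  calc B < 2 ^ B := Nat.lt_two_pow_self
    _ ≤ Fintype.card F ^ B := Nat.pow_le_pow_left hF B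
    _ ≤ Fintype.card F ^ (n * B) :=
        Nat.pow_le_pow_right (by omega) (Nat.le_mul_of_pos_left B hn)
    _ = Nat.card (Multiplicative (Matrix (Fin n) (Fin B) F)) := hcard.symm
    _ ≤ Nat.card (Multiplicative (Matrix (Fin n) (Fin B) F)) * Nat.card L :=
        Nat.le_mul_of_pos_right _ hL

end matrix

section sylow

/-- if `s` divides the order of `G` exactly once, any two elements of order `s` are conjugate up to
a power -/
theorem exists_conj_pow {G : Type u} [Group G] [Finite G] (s m : ℕ) (hs : s.Prime)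
    (hcard : Nat.card G = s * m) (hm : ¬ s ∣ m) (g x : G) (hg : orderOf g = s)
    (hx : orderOf x = s) : ∃ (c : G) (k : ℕ), (c * g * c⁻¹) ^ k = x := by
  have : Fact s.Prime := ⟨hs⟩
  have hm0 : m ≠ 0 := by rintro rfl; exact hm (dvd_zero _)
  have hfac : (Nat.card G).factorization s = 1 := by
    rw [hcard, Nat.factorization_mul hs.ne_zero hm0, Finsupp.add_apply,
      hs.factorization_self, Nat.factorization_eq_zero_of_not_dvd hm]
  let P : Sylow s G := Sylow.ofCard (Subgroup.zpowers g) (by
    rw [Nat.card_zpowers, hg, hfac, pow_one])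
  let Q : Sylow s G := Sylow.ofCard (Subgroup.zpowers x) (by
    rw [Nat.card_zpowers, hx, hfac, pow_one])
  obtain ⟨c, hc⟩ := MulAction.exists_smul_eq G P Q
  have hxQ : x ∈ (Q : Subgroup G) := Subgroup.mem_zpowers x
  rw [← hc, Sylow.coe_subgroup_smul] at hxQ
  have hy : (MulAut.conj c)⁻¹ • x ∈ (P : Subgroup G) :=
    Subgroup.mem_pointwise_smul_iff_inv_smul_mem.mp hxQ
  have hy' : (MulAut.conj c)⁻¹ • x ∈ Subgroup.zpowers g := hy
  have hfo : IsOfFinOrder g := isOfFinOrder_of_finite g
  rw [← hfo.mem_powers_iff_mem_zpowers] at hy'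
  obtain ⟨k, hk⟩ := hy'
  have hk' : g ^ k = (MulAut.conj c)⁻¹ • x := hk
  refine ⟨c, k, ?_⟩
  rw [conj_pow, hk']
  show c * ((MulAut.conj c)⁻¹ x) * c⁻¹ = x
  rw [← map_inv, MulAut.conj_apply]
  group

end sylow

end Cfsg.Agent.Lib.Helper93.PGExt
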