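import Mathlib
import Cfsg.Agent.Lib.Helper93.LargeExtra

set_option autoImplicit false

namespace Cfsg.Agent.Lib.Helper93

variable {G : Type*} [Group G]

theorem ES.exists_centralizing [Finite G] {Q : Subgroup G} {z : G} (h : ES Q z) (W : Subgroup G)
    (hzW : z ∈ W) (hWQ : W ≤ Q) {x : G} (hx : x ∈ Q) (hxW : x ∉ W) :
    ∃ g ∈ Q, (∀ s ∈ W, g * s = s * g) ∧ g * x = z * (x * g) := by
  classical
  have hcl : Subgroup.closure (insert z (((W : Set G).toFinite.toFinset : Finset G) : Set G)) = W := by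
    have : insert z (((W : Set G).toFinite.toFinset : Finset G) : Set G) = (W : Set G) := by
      ext y; simp only [Set.Finite.coe_toFinset, Set.mem_insert_iff, SetLike.mem_coe]
      constructor
      · rintro (rfl | hy)
        · exact hzW
        · exact hy
      · exact Or.inr
    rw [this, Subgroup.closure_eq]
  obtain ⟨g, hg, hgS, hgx⟩ := h.exists_comm_not_comm (W : Set G).toFinite.toFinset
    (fun s hs => hWQ (by simpa using hs)) x hx (by rw [hcl]; exact hxW)
  exact ⟨g, hg, fun s hs => hgS s (by simpa using hs), (h.ne_iff hg hx).1 hgx⟩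

/-- `U` is a singular subgroup (with respect to the conjugates of `z`). -/
structure Sing (z : G) (U : Subgroup G) : Prop where
  sq : ∀ u ∈ U, u * u = 1
  conj : ∀ u ∈ U, u ≠ 1 → ∃ g : G, g * z * g⁻¹ = u
  orth : ∀ u ∈ U, ∀ v ∈ U, u ≠ 1 → v ≠ 1 → v ∈ QQ u

namespace Sing

variable {z : G} {U : Subgroup G}

theorem les [Finite G] (hU : Sing z U) (h : LES z) {u : G} (hu : u ∈ U) (hu1 : u ≠ 1) : LES u := by
  obtain ⟨g, rfl⟩ := hU.conj u hu hu1
  exact h.conj g

theorem le_QQ (hU : Sing z U) {u : G} (hu : u ∈ U) (hu1 : u ≠ 1) : U ≤ QQ u := by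
  intro v hv
  by_cases hv1 : v = 1
  · rw [hv1]; exact Subgroup.one_mem _
  · exact hU.orth u hu v hv hu1 hv1

theorem inv_eq (hU : Sing z U) {u : G} (hu : u ∈ U) : u⁻¹ = u :=
  inv_eq_of_mul_eq_one_left (hU.sq u hu)

theorem comm (hU : Sing z U) {a b : G} (ha : a ∈ U) (hb : b ∈ U) : a * b = b * a := by
  have h1 := hU.sq (a * b) (U.mul_mem ha hb)
  calc a * b = (a * b)⁻¹ := (inv_eq_of_mul_eq_one_left h1).symm
    _ = b⁻¹ * a⁻¹ := by group
    _ = b * a := by rw [hU.inv_eq ha, hU.inv_eq hb]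

theorem mul_ne_one (hU : Sing z U) {a b : G} (ha : a ∈ U) (hab : a ≠ b) : a * b ≠ 1 := by
  intro h
  apply hab
  have : b = a⁻¹ := (inv_eq_of_mul_eq_one_right h).symm
  rw [this, hU.inv_eq ha]

theorem exists_move [Finite G] (hU : Sing z U) (h : LES z) {u v : G} (hu : u ∈ U) (hv : v ∈ U)
    (hu1 : u ≠ 1) (hv1 : v ≠ 1) (huv : u ≠ v) : ∃ q ∈ QQ v, q * u * q⁻¹ = v * u := by
  have hes := (hU.les h hv hv1).es
  have huQ : u ∈ QQ v := hU.orth v hv u hu hv1 hu1
  obtain ⟨q, hq, hqu⟩ : ∃ q ∈ QQ v, q * u ≠ u * q := by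
    by_contra hcon
    push Not at hcon
    rcases hes.center u huQ (fun b hb => (hcon b hb).symm) with h1 | h1
    · exact hu1 h1
    · exact huv h1
  refine ⟨q, hq, ?_⟩
  rw [(hes.ne_iff hq huQ).1 hqu]; group

theorem inf_le_mul [Finite G] (hU : Sing z U) (h : LES z) {u v : G} (hu : u ∈ U) (hv : v ∈ U)
    (hu1 : u ≠ 1) (hv1 : v ≠ 1) (huv : u ≠ v) : QQ u ⊓ QQ v ≤ QQ (u * v) := by
  rintro y ⟨hyu, hyv⟩
  obtain ⟨q, hq, hqu⟩ := hU.exists_move h hu hv hu1 hv1 huv
  have hes := (hU.les h hv hv1).es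
  have h1 := conj_mem_QQ q hyu
  rw [hqu, ← hU.comm hu hv] at h1
  have hvQ : v ∈ QQ (u * v) :=
    hU.orth (u * v) (U.mul_mem hu hv) v hv (hU.mul_ne_one hu huv) hv1
  rcases hes.comm q hq y hyv with h2 | h2
  · have : q * y * q⁻¹ = y := by rw [h2]; group
    rwa [this] at h1
  · have : q * y * q⁻¹ = v * y := by rw [h2]; group
    rw [this] at h1
    have := (QQ (u * v)).mul_mem ((QQ (u * v)).inv_mem hvQ) h1
    simpa using this

theorem iInf_le_QQ [Finite G] (hU : Sing z U) (h : LES z) (T : Set G)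
    (hT : Subgroup.closure T = U) :
    ∀ u ∈ U, u ≠ 1 → ⨅ t ∈ T, QQ t ≤ QQ u := by
  intro u hu
  have hTU : ∀ y ∈ Subgroup.closure T, y ∈ U := fun y hy => hT ▸ hy
  rw [← hT] at hu
  induction hu using Subgroup.closure_induction with
  | mem t ht => exact fun _ => iInf₂_le t ht
  | one => exact fun h => absurd rfl h
  | mul a b ha hb iha ihb =>
    intro hab
    by_cases ha1 : a = 1
    · rw [ha1, one_mul] at hab ⊢; exact ihb hab
    by_cases hb1 : b = 1
    · rw [hb1, mul_one] at hab ⊢; exact iha hab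
    have hne : a ≠ b := by
      rintro rfl
      exact hab (hU.sq a (hTU a ha))
    exact (le_inf (iha ha1) (ihb hb1)).trans (hU.inf_le_mul h (hTU a ha) (hTU b hb) ha1 hb1 hne)
  | inv a ha iha =>
    rw [hU.inv_eq (hTU a ha)]
    exact iha

theorem QQ_le_normalizer [Finite G] (hU : Sing z U) (h : LES z) {u : G} (hu : u ∈ U) (hu1 : u ≠ 1) :
    QQ u ≤ Subgroup.normalizer (U : Set G) := by
  have hes := (hU.les h hu hu1).es
  have key : ∀ g ∈ QQ u, ∀ v ∈ U, g * v * g⁻¹ ∈ U := by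
    intro g hg v hv
    rcases hes.comm g hg v (hU.le_QQ hu hu1 hv) with h2 | h2
    · have : g * v * g⁻¹ = v := by rw [h2]; group
      rwa [this]
    · have : g * v * g⁻¹ = u * v := by rw [h2]; group
      rw [this]; exact U.mul_mem hu hv
  intro g hg
  rw [Subgroup.mem_normalizer_iff]
  intro v
  refine ⟨key g hg v, fun hv => ?_⟩
  have := key g⁻¹ ((QQ u).inv_mem hg) _ hv
  simpa [mul_assoc] using this

theorem iSup_le_normalizer [Finite G] (hU : Sing z U) (h : LES z) :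
    ⨆ u ∈ ((U : Set G) \ {1}), QQ u ≤ Subgroup.normalizer (U : Set G) :=
  iSup₂_le fun _ hu => hU.QQ_le_normalizer h hu.1 (by simpa using hu.2)

end Sing

end Cfsg.Agent.Lib.Helper93
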